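import Mathlib

set_option autoImplicit false

namespace Cfsg.Agent.Lib.Helper16

open MulAction SubMulAction

/-- If `G` is `m`-transitive and the fixing subgroup of an `m`-set is `k`-transitive on the
complement then `G` is `(m+k)`-transitive. -/
theorem isMultiplyPretransitive_add_of_fixing {G α : Type*} [Group G] [MulAction G α] {m k : ℕ}
    (hm : IsMultiplyPretransitive G α m) (s : Set α) [Finite s] (hs : s.ncard = m)
    (hk : IsMultiplyPretransitive (fixingSubgroup G s) (ofFixingSubgroup G s) k) :
    IsMultiplyPretransitive G α (m + k) := by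
  subst hs
  have Hs : Nonempty (Fin (s.ncard) ≃ s) := Finite.card_eq.mp (by simp [Nat.card_coe_set_eq])
  have claim : ∀ x : Fin (s.ncard + k) ↪ α, ∃ g : G, ∃ z : Fin k ↪ ofFixingSubgroup G s,
      g • x = ofFixingSubgroup.append z := by
    intro x
    let e : Fin s.ncard ↪ α := (Classical.choice Hs).toEmbedding.trans (Function.Embedding.subtype _)
    let x1 : Fin s.ncard ↪ α := (Fin.castAddEmb k).trans x
    obtain ⟨g, hg⟩ := hm.exists_smul_eq x1 e
    have hg' : ∀ i : Fin s.ncard, g • x (Fin.castAdd k i) = (Classical.choice Hs) i := by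
      intro i
      have := congrArg (fun f : Fin s.ncard ↪ α => f i) hg
      exact this
    have hout : ∀ j : Fin k, g • x (Fin.natAdd s.ncard j) ∈ ofFixingSubgroup G s := by
      intro j
      rw [mem_ofFixingSubgroup_iff]
      intro hmem
      let i := (Classical.choice Hs).symm ⟨_, hmem⟩
      have hi : ((Classical.choice Hs) i : α) = g • x (Fin.natAdd s.ncard j) := by simp [i]
      rw [← hg' i] at hi
      have h2 := x.injective (MulAction.injective g hi)
      have h3 := congrArg Fin.val h2
      simp at h3
      omega
    let z : Fin k ↪ ofFixingSubgroup G s :=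
      ⟨fun j => ⟨g • x (Fin.natAdd s.ncard j), hout j⟩, by
        intro j j' hjj
        have h1 : g • x (Fin.natAdd s.ncard j) = g • x (Fin.natAdd s.ncard j') :=
          congrArg Subtype.val hjj
        have h2 := x.injective (MulAction.injective g h1)
        have h3 := congrArg Fin.val h2
        simp at h3
        exact Fin.ext h3⟩
    refine ⟨g, z, ?_⟩
    ext i
    refine Fin.addCases (fun i => ?_) (fun j => ?_) i
    · rw [ofFixingSubgroup.append_left]
      exact hg' i
    · rw [ofFixingSubgroup.append_right]
      rfl
  refine ⟨fun x y => ?_⟩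
  obtain ⟨g1, z1, h1⟩ := claim x
  obtain ⟨g2, z2, h2⟩ := claim y
  obtain ⟨h, hh⟩ := hk.exists_smul_eq z1 z2
  have h3 : (h : G) • ofFixingSubgroup.append z1 = ofFixingSubgroup.append z2 := by
    ext i
    refine Fin.addCases (fun i => ?_) (fun j => ?_) i
    · rw [Function.Embedding.smul_apply, ofFixingSubgroup.append_left,
        ofFixingSubgroup.append_left]
      exact h.2 _
    · rw [Function.Embedding.smul_apply, ofFixingSubgroup.append_right,
        ofFixingSubgroup.append_right, ← hh]
      rfl
  refine ⟨g2⁻¹ * (h : G) * g1, ?_⟩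
  rw [mul_smul, mul_smul, h1, h3, ← h2, inv_smul_smul]

end Cfsg.Agent.Lib.Helper16
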